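import Cfsg.Agent.Comp.Suz.Main
import Cfsg.Agent.Comp.Suz.G2K
import Cfsg.Agent.Chev.Types

/-! The point stabiliser of Suz is `G2(4)`. -/

set_option autoImplicit false
set_option maxRecDepth 100000

namespace CF.Comp.Suz

theorem card_G2 (K : Type*) [Field K] [Fintype K] (hK : Fintype.card K = 4) :
    Nat.card (Cfsg.Lie.chevG2.group K) = 251596800 :=
  CF.Chev.cardG2 K (Nat.card_eq_fintype_card.trans hK)

theorem equivG2 (K : Type*) [Field K] [Fintype K] (hK : Fintype.card K = 4) :
    Nonempty (clo f H1 ≃* Cfsg.Lie.chevG2.group K) := by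
  obtain ⟨el, hT⟩ := exists_ok_four hK
  exact (chG.nonempty_equiv (reps.sub_of_OK (ν := Gν) (by decide +kernel) (by decide) (by decide) subG)
    (fun _ h => evs_eq_one (ws := GWs) h)
    (LinOK.hasReps_chev (D := Cfsg.Lie.chevG2) linG hT (tabQ_tot 1 1 (by decide)) (by decide +kernel) chevG)
    (card_G2 K hK) (evs_mem (exact1.eq_clo ▸ clo_le.1 (clo_le_of_wordIn (by decide +kernel))))
    card1.le).2

end CF.Comp.Suz
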